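import Cfsg.Agent.H817.DPi.Def
import Cfsg.Agent.H284.SepOrd
import Cfsg.Agent.OrdDiv.Table
import Cfsg.Agent.S0495
import Cfsg.Agent.S0255

/-!
# S4247, piece EXCL: groups of the class `Cls π` of Lie type in a characteristic outside `π`
-/

set_option autoImplicit false

namespace Cfsg.Agent.H161.DPi.Excl

open Subgroup Cfsg Cfsg.Agent.H988.CPi Cfsg.Agent.H571.RV Cfsg.Agent.H817.DPi
open Cfsg.Agent.H902 Cfsg.Agent.H902.Names

universe u

variable {π : Set ℕ}

/-- the rank one groups are of Lie type -/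
theorem lie_of_rankOne {X : Type u} [Group X] {p : ℕ} (h : RankOne p X) : IsLieTypeChar p X := by
  rcases h with ⟨F, i1, i2, i3, h4, e⟩ | ⟨F, i1, i2, i3, q, hF, hq, e⟩ | ⟨hp, h⟩
  · exact Or.inl ⟨F, i1, i2, i3, 2, le_rfl, fun _ => h4, e⟩
  · exact Or.inr (Or.inr (Or.inl ⟨F, i1, i2, i3, 3, q, hF, le_rfl, fun h => hq h.2, e⟩))
  · exact Or.inr (Or.inr (Or.inr (Or.inr (Or.inr (Or.inr (Or.inr (Or.inr (Or.inr (Or.inr ⟨hp, h⟩)))))))))

/-- the shape of a rank one group -/
theorem real_of_rankOne {X : Type u} [Group X] {p : ℕ} (hp : p.Prime) (h : RankOne p X) :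
    ∃ (Y : Art.Sh) (f : ℕ), (Y = .L 2 ∨ Y = .U 3 ∨ Y = .Ree) ∧ Art.Real Y p f (Nat.card X) := by
  rcases h with ⟨F, i1, i2, i3, h4, ⟨e⟩⟩ | ⟨F, i1, i2, i3, q, hF, hq, ⟨e⟩⟩ | ⟨rfl, h⟩
  · obtain ⟨f, hf, hF⟩ := H284.SepOrd.field_pow (F := F) hp
    rw [hF] at h4
    exact ⟨.L 2, f, Or.inl rfl, by rw [Nat.card_congr e.toEquiv]; exact psl_real hp hf hF le_rfl (fun _ => h4)⟩
  · obtain ⟨f, hf, rfl⟩ := H284.SepOrd.root_pow hp (by norm_num) (H284.SepOrd.field_pow (F := F) hp) hF
    exact ⟨.U 3, f, Or.inr (Or.inl rfl), by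
      rw [Nat.card_congr e.toEquiv]; exact psu_real hp hf hF le_rfl (fun h => hq h.2)⟩
  · obtain ⟨F, _, _, m, hm, hF, ⟨e⟩⟩ := h
    refine ⟨.Ree, 2 * m + 1, Or.inr (Or.inr rfl), ⟨Nat.prime_three, by omega, ⟨rfl, odd_two_mul_add_one m, by omega⟩, ?_⟩⟩
    rw [Nat.card_congr e.toEquiv, (OrdDiv.table.{0}).ree F m hm hF]
    change 1 * _ = (3 ^ (2 * m + 1)) ^ 3 * (_ * _)
    ring

/-- no rank one group in characteristic 3 has order 25920 -/
theorem rankOne_25920 {X : Type u} [Group X] (h : RankOne 3 X) (hc : Nat.card X = 25920) : False := by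
  obtain ⟨Y, f, hY, hR⟩ := real_of_rankOne Nat.prime_three h
  rw [hc] at hR
  have h1 := Art.P_prime_exp hR
  have h2 : (25920 : ℕ).factorization 3 = 4 := by
    rw [show (25920 : ℕ) = 3 ^ 4 * 320 by norm_num, Nat.factorization_mul (by norm_num) (by norm_num),
      Finsupp.add_apply, Nat.Prime.factorization_pow Nat.prime_three, Finsupp.single_eq_same,
      Nat.factorization_eq_zero_of_not_dvd (by norm_num)]
  rw [h2] at h1
  rcases hY with rfl | rfl | rfl
  · have h3 : Art.NN (.L 2) = 1 := rfl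
    rw [h3, mul_one] at h1
    subst h1
    have h4 := Art.val_eq hR
    have h5 : Art.val 3 (.L 2, 4) ≠ 25920 := by decide +kernel
    exact h5 h4
  · have h3 : Art.NN (.U 3) = 3 := rfl
    rw [h3] at h1
    omega
  · have h3 : Art.NN .Ree = 3 := rfl
    rw [h3] at h1
    omega

/-- M11 and M23 are not of Lie type -/
theorem not_lie_of_card {X : Type u} [Group X] {p : ℕ} (hp : p.Prime) (h : IsLieTypeChar p X)
    (hc : Nat.card X = 7920 ∨ Nat.card X = 10200960) : False := by
  obtain ⟨Y, f, hR⟩ := H284.SepOrd.real_of_lie (OrdDiv.table.{u}) hp h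
  have h1 := hR.lt_cube
  by_cases hp2 : p = 2
  · subst hp2
    rcases hc with hc | hc
    · rw [hc] at h1
      have h2 : Art.P 2 7920 = 2 ^ 4 := by
        have : 7920 = 2 ^ 4 * 495 := by norm_num
        rw [this, Art.P_pow_self Nat.prime_two (by norm_num)]
      rw [h2] at h1
      norm_num at h1
    · rw [hc] at h1
      have h2 : Art.P 2 10200960 = 2 ^ 7 := by
        have : 10200960 = 2 ^ 7 * 79695 := by norm_num
        rw [this, Art.P_pow_self Nat.prime_two (by norm_num)]
      rw [h2] at h1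
      norm_num at h1
  · rcases hc with hc | hc
    · rw [hc] at hR
      exact H284.SepOrd.chk_real hR (l := []) (by decide +kernel) hp2 (by simp)
    · rw [hc] at hR
      exact H284.SepOrd.chk_real hR (l := []) (by decide +kernel) hp2 (by simp)

/-- groups of order dividing 15 are nilpotent -/
theorem nil_15 {H : Type*} [Group H] [Finite H] (h : Nat.card H ∣ 15) : Group.IsNilpotent H := by
  have key : ∀ (p : ℕ) (_ : Fact p.Prime) (P : Sylow p H), (P : Subgroup H).Normal := by
    intro p hp P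
    have h1 : Nat.card (Sylow p H) ∣ 15 := (P.card_dvd_index.trans (P : Subgroup H).index_dvd_card).trans h
    have h2 := card_sylow_modEq_one p H
    by_cases hpd : p ∣ Nat.card H
    · have h3 : p = 3 ∨ p = 5 := by
        have h4 : p ∣ 3 * 5 := hpd.trans h
        rcases (Nat.Prime.dvd_mul hp.out).mp h4 with h5 | h5
        · exact Or.inl ((Nat.prime_dvd_prime_iff_eq hp.out Nat.prime_three).mp h5)
        · exact Or.inr ((Nat.prime_dvd_prime_iff_eq hp.out Nat.prime_five).mp h5)
      have h6 : Nat.card (Sylow p H) = 1 := by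
        have h7 : Nat.card (Sylow p H) ∈ Nat.divisors 15 := Nat.mem_divisors.mpr ⟨h1, by norm_num⟩
        have h8 : Nat.divisors 15 = {1, 3, 5, 15} := by decide +kernel
        rw [h8] at h7
        simp only [Finset.mem_insert, Finset.mem_singleton] at h7
        unfold Nat.ModEq at h2
        rcases h3 with rfl | rfl <;> rcases h7 with h7 | h7 | h7 | h7 <;> rw [h7] at h2 <;> first | exact h7 | (norm_num at h2)
      have h9 : Subsingleton (Sylow p H) := (Nat.card_eq_one_iff_unique.mp h6).1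
      exact Sylow.normal_of_subsingleton P
    · have h3 : (P : Subgroup H) = ⊥ := by
        rw [← Subgroup.card_eq_one]
        obtain ⟨n, hn⟩ := IsPGroup.iff_card.mp P.2
        rcases n with _ | n
        · rw [hn, pow_zero]
        · exact absurd ((dvd_pow_self p (Nat.succ_ne_zero n)).trans (hn ▸ (P : Subgroup H).card_subgroup_dvd_card)) hpd
      rw [h3]
      infer_instance
  exact (Group.isNilpotent_of_finite_tfae.out 0 3).mpr key

/-- **EXCL**, the Hall subgroups being conjugate by hypothesis -/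
theorem excl_of_conj {X : Type u} [Group X] [Finite X] [IsSimpleGroup X] (h2 : 2 ∉ π)
    (hC : ∀ H K : Subgroup X, IsPiHall π H → IsPiHall π K → ∃ g : X, K = H.map (MulAut.conj g).toMonoidHom) {p : ℕ}
    (hp : p.Prime) (hpπ : p ∉ π) (hX : IsLieTypeChar p X) (h : Cls π X) :
    (∀ P : Subgroup X, IsPiHall π P → Group.IsNilpotent P) ∨
      Nonempty (X ≃* Matrix.ProjectiveSpecialLinearGroup (Fin 3) (ZMod 2)) ∨
      Nonempty (X ≃* Matrix.ProjectiveSpecialLinearGroup (Fin 5) (ZMod 2)) := by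
  rcases h with ⟨H, hH, hn⟩ | h
  · left
    intro P hP
    obtain ⟨g, rfl⟩ := hC H P hH hP
    have : Group.IsNilpotent H := hn
    exact Group.nilpotent_of_surjective (H.equivMapOfInjective (MulAut.conj g).toMonoidHom
      (MulEquiv.injective _)).toMonoidHom (MulEquiv.surjective _)
  rcases h with ⟨r, hrπ, hr, h⟩ | h | h | h | h
  · have hr2 : r ≠ 2 := fun h => h2 (h ▸ hrπ)
    have hne : p ≠ r := fun h => hpπ (h ▸ hrπ)
    have hl := lie_of_rankOne h
    obtain ⟨Y, f, hY⟩ := H284.SepOrd.real_of_lie (OrdDiv.table.{u}) hr hl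
    rcases H284.SepOrd.sep (OrdDiv.table.{u}) hp hr hne hX hl with hc | hc | hc
    · left
      intro P hP
      have hPc : Nat.card P ∣ 60 := hc ▸ P.card_subgroup_dvd_card
      have hodd : ¬ 2 ∣ Nat.card P := fun h => h2 (hP.1 2 Nat.prime_two h)
      apply nil_15
      have h3 : Nat.card P ∣ 4 * 15 := hPc
      refine Nat.Coprime.dvd_of_dvd_mul_left ?_ h3
      have : Nat.Coprime (Nat.card P) (2 ^ 2) := Nat.Coprime.pow_right 2 (((Nat.Prime.coprime_iff_not_dvd Nat.prime_two).mpr hodd).symm)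
      exact this
    · right; left
      obtain ⟨e⟩ := S0495.result hc (F := ZMod 7) (by simp [ZMod.card])
      obtain ⟨e'⟩ := S0255.result (F := ZMod 7) (K := ZMod 2) (by simp [ZMod.card]) (by simp [ZMod.card])
      exact ⟨e.trans e'⟩
    · exfalso
      rw [hc] at hY
      have h3 : r = 3 := by
        by_contra h3
        exact H284.SepOrd.chk_real hY H284.SepOrd.chk_25920 hr2 (by rw [List.mem_singleton]; exact h3)
      subst h3
      exact rankOne_25920 h hc
  · exact Or.inr (Or.inl h)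
  · exact Or.inr (Or.inr h.1)
  · exact (not_lie_of_card hp hX (Or.inl ((OrdDiv.table.{u}).spor X (.m11, 7920) (by decide) h.1))).elim
  · exact (not_lie_of_card hp hX (Or.inr ((OrdDiv.table.{u}).spor X (.m23, 10200960) (by decide) h.1))).elim

end Cfsg.Agent.H161.DPi.Excl
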